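import Cfsg.Agent.PGroup.Basic
import Cfsg.Agent.PLocalBasics.NormalElemAbelian
import Cfsg.Agent.Uniqueness.Basic
import Cfsg.Prelude.Def_CaseTheorems

/-!
Characteristic sections of `p`-groups of rank at most two, `p` odd.
-/

set_option autoImplicit false
set_option linter.style.haveILetI false
set_option linter.unusedSectionVars false

namespace CfsgLib.RankTwoChief

open scoped commutatorElement

variable {p : ℕ} [hp : Fact p.Prime] {P : Type*} [Group P] [Finite P]

/-- An element all of whose commutators lie in a subgroup `E` has centralizer of index at most `|E|`. -/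
theorem index_centralizer_singleton_le {a : P} {E : Subgroup P} (h : ∀ g, ⁅a, g⁆ ∈ E) :
    (Subgroup.centralizer ({a} : Set P)).index ≤ Nat.card E := by
  rw [Subgroup.index_eq_card]
  refine Nat.card_le_card_of_injective (fun q => (⟨⁅a, q.out⁆, h _⟩ : E)) fun q q' e => ?_
  have h1 : a * q.out * a⁻¹ * q.out⁻¹ = a * q'.out * a⁻¹ * q'.out⁻¹ := congrArg Subtype.val e
  rw [← q.out_eq', ← q'.out_eq', QuotientGroup.eq, Subgroup.mem_centralizer_singleton_iff]
  have h2 : a⁻¹ * q.out⁻¹ = a⁻¹ * (q.out⁻¹ : P) := rfl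
  have h3 : q.out * a⁻¹ * q.out⁻¹ = q'.out * a⁻¹ * q'.out⁻¹ := by
    have := congrArg (fun x => a⁻¹ * x) h1
    simpa [mul_assoc] using this
  have h4 : q.out⁻¹ * q'.out * a⁻¹ = a⁻¹ * (q.out⁻¹ * q'.out) := by
    calc q.out⁻¹ * q'.out * a⁻¹ = q.out⁻¹ * (q'.out * a⁻¹ * q'.out⁻¹) * q'.out := by group
      _ = a⁻¹ * (q.out⁻¹ * q'.out) := by rw [← h3]; group
  calc q.out⁻¹ * q'.out * a = a * (a⁻¹ * (q.out⁻¹ * q'.out)) * a := by group
    _ = a * (q.out⁻¹ * q'.out) := by rw [← h4]; group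

theorem le_card_of_lt {A B : Subgroup P} (hP : IsPGroup p P) (h : A < B) : p * Nat.card A ≤ Nat.card B := by
  obtain ⟨k, hk⟩ := IsPGroup.iff_card.1 (hP.to_subgroup A)
  obtain ⟨l, hl⟩ := IsPGroup.iff_card.1 (hP.to_subgroup B)
  have hlt : Nat.card A < Nat.card B := by
    refine lt_of_le_of_ne (Subgroup.card_le_of_le h.le) fun e => h.ne (Subgroup.eq_of_le_of_card_ge h.le e.ge)
  rw [hk, hl] at hlt ⊢
  rw [← pow_succ']
  exact Nat.pow_le_pow_right hp.out.pos ((Nat.pow_lt_pow_iff_right hp.out.one_lt).1 hlt)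

theorem isMulCommutative_sup_zpowers {A : Subgroup P} (hA : IsMulCommutative A) {b : P}
    (hb : ∀ a ∈ A, a * b = b * a) : IsMulCommutative ↥(A ⊔ Subgroup.zpowers b) := by
  haveI := hA
  rw [← Subgroup.closure_eq A, Subgroup.zpowers_eq_closure, ← Subgroup.closure_union]
  refine Subgroup.isMulCommutative_closure ?_
  rintro u (hu | rfl) v (hv | rfl)
  exacts [setLike_mul_comm hu hv, hb u hu, (hb v hv).symm, rfl]

/-- Exponent `p`, class two, abelian subgroups of order at most `p²`: order at most `p³`, centre small. -/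
theorem card_le_cube (hP : IsPGroup p P) (h2 : ∀ a b : P, ⁅a, b⁆ ∈ Subgroup.center P)
    (hrk : ∀ A : Subgroup P, IsMulCommutative A → Nat.card A ≤ p ^ 2) :
    Nat.card P ≤ p ^ 3 ∧ (Nat.card (Subgroup.center P) ≤ p ∨ Subgroup.center P = ⊤) := by
  set Z := Subgroup.center P with hZ
  have hZab : IsMulCommutative Z := ⟨⟨fun a b => Subtype.ext (Subgroup.mem_center_iff.1 b.2 a)⟩⟩
  by_cases hab : Z = ⊤
  · refine ⟨?_, Or.inr hab⟩
    rw [← Subgroup.card_top (G := P), ← hab]
    exact (hrk Z hZab).trans (Nat.pow_le_pow_right hp.out.pos (by omega))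
  obtain ⟨a, -, haZ⟩ := SetLike.exists_of_lt (lt_top_iff_ne_top.2 hab)
  set A := Z ⊔ Subgroup.zpowers a with hA
  have haA : a ∈ A := Subgroup.mem_sup_right (Subgroup.mem_zpowers a)
  have hAab : IsMulCommutative A :=
    isMulCommutative_sup_zpowers hZab fun z hz => (Subgroup.mem_center_iff.1 hz a).symm
  have hZA : Z < A := lt_of_le_of_ne le_sup_left fun e => haZ (e.ge haA)
  have hZp : Nat.card Z ≤ p := by
    have := (le_card_of_lt hP hZA).trans (hrk A hAab)
    rw [pow_two] at this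
    exact Nat.le_of_mul_le_mul_left this hp.out.pos
  refine ⟨?_, Or.inl hZp⟩
  have hCA : Subgroup.centralizer ({a} : Set P) ≤ A := by
    intro b hb
    by_contra hbA
    have hbc : ∀ x ∈ A, x * b = b * x := by
      intro x hx
      have hle : A ≤ Subgroup.centralizer ({b} : Set P) := sup_le (Subgroup.center_le_centralizer _)
        (Subgroup.zpowers_le.2 (Subgroup.mem_centralizer_singleton_iff.2
          (Subgroup.mem_centralizer_singleton_iff.1 hb).symm))
      exact Subgroup.mem_centralizer_singleton_iff.1 (hle hx)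
    have hlt : A < A ⊔ Subgroup.zpowers b :=
      lt_of_le_of_ne le_sup_left fun e => hbA (e.ge (Subgroup.mem_sup_right (Subgroup.mem_zpowers b)))
    have h1 := (Nat.mul_le_mul_left p (le_card_of_lt hP hZA)).trans
      ((le_card_of_lt hP hlt).trans (hrk _ (isMulCommutative_sup_zpowers hAab hbc)))
    rw [pow_two] at h1
    have h2' : p * Nat.card Z ≤ p := Nat.le_of_mul_le_mul_left h1 hp.out.pos
    haveI : Nontrivial P := ⟨⟨a, 1, fun h => haZ (h ▸ one_mem _)⟩⟩
    haveI := hP.center_nontrivial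
    have h3 : 1 < Nat.card Z := Finite.one_lt_card
    have h4 : p * 2 ≤ p := (Nat.mul_le_mul_left p h3).trans h2'
    have := hp.out.pos
    omega
  rw [← (Subgroup.centralizer ({a} : Set P)).card_mul_index, pow_succ]
  exact Nat.mul_le_mul ((Subgroup.card_le_of_le hCA).trans (hrk A hAab))
    ((index_centralizer_singleton_le (h2 a)).trans hZp)

/-- If all elements of order `p` are central, equal `p`-th powers differ by an element of order `p`. -/
theorem pow_div_eq_one (hp2 : p ≠ 2) : ∀ (n : ℕ) {Q : Type*} [Group Q] [Finite Q], Nat.card Q = n → IsPGroup p Q →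
    (∀ x : Q, x ^ p = 1 → x ∈ Subgroup.center Q) → ∀ x y : Q, x ^ p = y ^ p → (x * y⁻¹) ^ p = 1 := by
  intro n
  induction n using Nat.strong_induction_on with
  | _ n ih =>
  intro Q _ _ hn hQ hc x y hxy
  have key : ∀ S : Subgroup Q, S ≠ ⊤ → ∀ u ∈ S, ∀ v ∈ S, u ^ p = v ^ p → (u * v⁻¹) ^ p = 1 := by
    intro S hS u hu v hv huv
    have hlt : Nat.card S < n := hn ▸ lt_of_le_of_ne (Subgroup.card_le_card_group S)
      fun e => hS (Subgroup.eq_top_of_card_eq S e)
    have := ih _ hlt (Q := S) rfl (hQ.to_subgroup S) (fun w hw => Subgroup.mem_center_iff.2 fun g =>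
      Subtype.ext (Subgroup.mem_center_iff.1 (hc w (congrArg Subtype.val hw)) g))
      ⟨u, hu⟩ ⟨v, hv⟩ (Subtype.ext huv)
    exact congrArg Subtype.val this
  by_cases hcyc : x * y = y * x
  · rw [Commute.mul_pow (show Commute x y from hcyc).inv_right, inv_pow, hxy, mul_inv_cancel]
  -- `y` and its conjugate by `x` lie in a proper subgroup
  have hconj : (x * y * x⁻¹) ^ p = y ^ p := by
    rw [conj_pow, ← hxy, ← pow_succ', pow_succ, mul_inv_cancel_right]
  haveI := hQ.isNilpotent
  have hy : Subgroup.zpowers y ≠ ⊤ := fun h => hcyc (by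
    obtain ⟨i, hi⟩ := Subgroup.mem_zpowers_iff.1 (h.ge (Subgroup.mem_top x))
    rw [← hi]; exact ((Commute.refl y).zpow_left i).eq)
  obtain ⟨M, hM, hyM⟩ := (eq_top_or_exists_le_coatom (Subgroup.zpowers y)).resolve_left hy
  haveI hMn : M.Normal := Subgroup.NormalizerCondition.normal_of_coatom M Group.normalizerCondition_of_isNilpotent hM
  have hyM' : y ∈ M := hyM (Subgroup.mem_zpowers y)
  have hcc := hc _ (key M hM.1 _ (hMn.conj_mem y hyM' x) y hyM' hconj)
  have hcomm : ⁅x, y⁆ ∈ Subgroup.center Q := by rwa [commutatorElement_def]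
  -- class two on `x` and `y`
  have hcy : ⁅x, y⁆ ^ p = 1 := by
    have := key M hM.1 _ (hMn.conj_mem y hyM' x) y hyM' hconj
    rwa [commutatorElement_def]
  have hxy' : ⁅y⁻¹, x⁆ = ⁅x, y⁆ := by
    have h1 := Subgroup.mem_center_iff.1 hcomm y⁻¹
    rw [commutatorElement_def] at h1 ⊢
    rw [inv_inv]
    calc y⁻¹ * x * y * x⁻¹ = y⁻¹ * (x * y * x⁻¹ * y⁻¹) * y := by group
      _ = x * y * x⁻¹ * y⁻¹ := by rw [h1]; group
  obtain ⟨k, hk⟩ := CfsgLib.PGroup.dvd_choose_two (p := p) hp2
  rw [CfsgLib.PGroup.mul_pow_central (hxy' ▸ hcomm), hxy', hk, pow_mul, hcy, one_pow, mul_one, inv_pow, hxy,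
    mul_inv_cancel]

/-- A characteristically simple top section of a `p`-group of rank two has order at most `p²`. -/
theorem index_le_sq (hp2 : p ≠ 2) (hP : IsPGroup p P) (hrk : Cfsg.PRankLE p 2 P) (L : Subgroup P)
    (hpow : ∀ x : P, x ^ p ∈ L) (hL : ∀ T : Subgroup P, T.Characteristic → T = ⊤ ∨ T ≤ L) :
    L.index ≤ p ^ 2 := by
  classical
  have hEab : ∀ S : Subgroup P, IsMulCommutative S → (∀ s ∈ S, s ^ p = 1) → Nat.card S ≤ p ^ 2 := hrk
  let E : Subgroup P :=
    { carrier := {x | x ∈ Subgroup.center P ∧ x ^ p = 1}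
      one_mem' := ⟨one_mem _, one_pow p⟩
      mul_mem' := fun {a b} ha hb => ⟨mul_mem ha.1 hb.1, by
        rw [Commute.mul_pow (show Commute a b from (Subgroup.mem_center_iff.1 hb.1 a)), ha.2, hb.2, one_mul]⟩
      inv_mem' := fun {a} ha => ⟨inv_mem ha.1, by rw [inv_pow, ha.2, inv_one]⟩ }
  have hEm : ∀ x, x ∈ E ↔ x ∈ Subgroup.center P ∧ x ^ p = 1 := fun _ => Iff.rfl
  have hE : IsMulCommutative E := ⟨⟨fun a b => Subtype.ext (Subgroup.mem_center_iff.1 b.2.1 a)⟩⟩
  have hE2 : Nat.card E ≤ p ^ 2 := hrk E hE fun x hx => hx.2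
  by_cases hall : ∀ x : P, x ^ p = 1 → x ∈ Subgroup.center P
  · -- the `p`-th power map has fibres inside cosets of `E`
    have h1 : Nat.card P ≤ Nat.card (L × E) := by
      let r : L → P := fun l => if h : ∃ x, x ^ p = (l : P) then h.choose else 1
      have hr : ∀ x : P, r ⟨x ^ p, hpow x⟩ ^ p = x ^ p := fun x => by
        have h : ∃ y, y ^ p = x ^ p := ⟨x, rfl⟩
        simp only [r, dif_pos h]
        exact h.choose_spec
      refine Nat.card_le_card_of_injective (fun x => ((⟨x ^ p, hpow x⟩ : L),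
        (⟨x * (r ⟨x ^ p, hpow x⟩)⁻¹, hall _ (pow_div_eq_one hp2 _ rfl hP hall _ _ (hr x).symm),
          pow_div_eq_one hp2 _ rfl hP hall _ _ (hr x).symm⟩ : E))) fun x x' hxx => ?_
      simp only [Prod.mk.injEq, Subtype.mk.injEq] at hxx
      obtain ⟨h1, h2⟩ := hxx
      have e : (⟨x ^ p, hpow x⟩ : L) = ⟨x' ^ p, hpow x'⟩ := Subtype.ext h1
      rw [e] at h2
      exact mul_right_cancel h2
    rw [Nat.card_prod, ← L.card_mul_index] at h1
    exact (Nat.le_of_mul_le_mul_left h1 Nat.card_pos).trans hE2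
  push Not at hall
  obtain ⟨x, hxp, hxc⟩ := hall
  -- `E` has order `p`
  have hEx : IsMulCommutative ↥(E ⊔ Subgroup.zpowers x) :=
    isMulCommutative_sup_zpowers hE fun a ha => (Subgroup.mem_center_iff.1 ha.1 x).symm
  have hxA : x ∈ E ⊔ Subgroup.zpowers x := Subgroup.mem_sup_right (Subgroup.mem_zpowers x)
  have hlt : E < E ⊔ Subgroup.zpowers x := lt_of_le_of_ne le_sup_left fun e => hxc (e.ge hxA).1
  have hAp : ∀ s ∈ E ⊔ Subgroup.zpowers x, s ^ p = 1 := by
    haveI := hEx
    intro s hs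
    rw [Subgroup.zpowers_eq_closure, ← Subgroup.closure_eq E, ← Subgroup.closure_union] at hs
    have hmem : ∀ u ∈ (E : Set P) ∪ {x}, u ∈ E ⊔ Subgroup.zpowers x := by
      rintro u (hu | rfl)
      exacts [Subgroup.mem_sup_left hu, hxA]
    refine (Subgroup.closure_induction (p := fun u _ => u ∈ E ⊔ Subgroup.zpowers x ∧ u ^ p = 1) ?_ ?_ ?_ ?_ hs).2
    · rintro u (hu | rfl)
      exacts [⟨hmem u (Or.inl hu), hu.2⟩, ⟨hxA, hxp⟩]
    · exact ⟨one_mem _, one_pow p⟩
    · rintro u v - - ⟨hu, hup⟩ ⟨hv, hvp⟩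
      exact ⟨mul_mem hu hv, by rw [Commute.mul_pow (setLike_mul_comm hu hv), hup, hvp, one_mul]⟩
    · rintro u - ⟨hu, hup⟩
      exact ⟨inv_mem hu, by rw [inv_pow, hup, inv_one]⟩
  have h5 := (le_card_of_lt hP hlt).trans (hrk _ hEx hAp)
  have hEp : Nat.card E ≤ p := by rw [pow_two] at h5; exact Nat.le_of_mul_le_mul_left h5 hp.out.pos
  have hE1 : E ≠ ⊥ := by
    haveI : Nontrivial P := ⟨⟨x, 1, fun h => hxc (h ▸ one_mem _)⟩⟩
    haveI := hP.center_nontrivial
    obtain ⟨k, hk⟩ := IsPGroup.iff_card.1 (hP.to_subgroup (Subgroup.center P))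
    have hk0 : k ≠ 0 := fun h0 => by
      have := Finite.one_lt_card (α := Subgroup.center P)
      rw [hk, h0] at this; simp at this
    obtain ⟨z, hz⟩ := exists_prime_orderOf_dvd_card' (G := Subgroup.center P) p (hk ▸ dvd_pow_self p hk0)
    intro h
    have hzE : (z : P) ∈ E := (hEm _).2 ⟨z.2, by rw [← hz, ← Subgroup.orderOf_coe]; exact pow_orderOf_eq_one _⟩
    rw [h, Subgroup.mem_bot] at hzE
    rw [← Subgroup.orderOf_coe, hzE, orderOf_one] at hz
    exact hp.out.ne_one hz.symm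
  -- the elements of order `p` of the second centre
  set Z2 := Subgroup.upperCentralSeriesStep (Subgroup.center P) with hZ2
  have h2 : ∀ a b : Z2, ⁅a, b⁆ ∈ Subgroup.center Z2 := fun a b => Subgroup.mem_center_iff.2 fun g =>
    Subtype.ext (Subgroup.mem_center_iff.1 ((Subgroup.mem_upperCentralSeriesStep _ _).1 a.2 b) g)
  set W := (CfsgLib.PGroup.omegaSubgroup (p := p) hp2 h2).map Z2.subtype with hW
  have hWm : ∀ w, w ∈ W ↔ w ∈ Z2 ∧ w ^ p = 1 := fun w => by
    constructor
    · rintro ⟨v, hv, rfl⟩; exact ⟨v.2, congrArg Subtype.val (show v ^ p = 1 from hv)⟩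
    · rintro ⟨hw, hwp⟩; exact ⟨⟨w, hw⟩, show _ ^ p = 1 from Subtype.ext hwp, rfl⟩
  have hcommE : ∀ w ∈ W, ∀ g, ⁅w, g⁆ ∈ E := fun w hw g => by
    obtain ⟨hw2, hwp⟩ := (hWm w).1 hw
    have hc := (Subgroup.mem_upperCentralSeriesStep _ _).1 hw2 g
    refine (hEm _).2 ⟨hc, ?_⟩
    have hcc : Commute ⁅w, g⁆ (g * w * g⁻¹) := (Subgroup.mem_center_iff.1 hc _).symm
    have e : ⁅w, g⁆ * (g * w * g⁻¹) = w := by rw [commutatorElement_def]; group
    have := congrArg (fun u => u ^ p) e
    simp only [hcc.mul_pow, conj_pow, hwp, mul_one, mul_inv_cancel] at this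
    exact this
  have hWchar : W.Characteristic := by
    refine Subgroup.characteristic_iff_map_le.2 fun φ => ?_
    rintro _ ⟨w, hw, rfl⟩
    obtain ⟨hw2, hwp⟩ := (hWm w).1 hw
    refine (hWm _).2 ⟨(Subgroup.mem_upperCentralSeriesStep _ _).2 fun y => ?_, ?_⟩
    · have h1 := (Subgroup.mem_upperCentralSeriesStep _ _).1 hw2 (φ.symm y)
      have h3 := (Subgroup.characteristic_iff_map_le.1 (inferInstance : (Subgroup.center P).Characteristic) φ)
        (Subgroup.mem_map_of_mem _ h1)
      rw [MulEquiv.coe_toMonoidHom, map_commutatorElement, φ.apply_symm_apply] at h3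
      exact h3
    · show (φ w) ^ p = 1
      rw [← map_pow, hwp, map_one]
  have hEW : E ≤ W := fun e he => (hWm e).2 ⟨(Subgroup.mem_upperCentralSeriesStep _ _).2 fun y => by
    rw [commutatorElement_eq_one_iff_mul_comm.2 (Subgroup.mem_center_iff.1 he.1 y).symm]; exact one_mem _, he.2⟩
  -- a noncentral element of `W`
  obtain ⟨w, hwW, hwc⟩ : ∃ w ∈ W, w ∉ Subgroup.center P := by
    have hr1 : ¬ Cfsg.PRankLE p 1 P := fun h => by
      have h6 := (le_card_of_lt hP hlt).trans (h _ hEx hAp)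
      rw [pow_one] at h6
      have : Nat.card E ≤ 1 := Nat.le_of_mul_le_mul_left (h6.trans_eq (mul_one p).symm) hp.out.pos
      exact hE1 (Subgroup.card_eq_one.1 (le_antisymm this Nat.card_pos))
    obtain ⟨U, hUn, hUe, hUc⟩ := CfsgLib.Uniq.exists_normal_elem_sq hp2 hP hr1
    haveI := hUn
    obtain ⟨w, hwU, hwc⟩ : ∃ w ∈ U, w ∉ Subgroup.center P := by
      by_contra hcon
      push Not at hcon
      have : Nat.card U ≤ p := (Subgroup.card_le_of_le (show U ≤ E from fun u hu => ⟨hcon u hu, hUe.2 u hu⟩)).trans hEp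
      rw [hUc] at this
      exact absurd this (not_le.2 (by nlinarith [hp.out.one_lt]))
    refine ⟨w, (hWm w).2 ⟨(Subgroup.mem_upperCentralSeriesStep _ _).2 fun y => ?_, hUe.2 w hwU⟩, hwc⟩
    have hne := CfsgLib.PReduced.inf_center_ne_bot hP (show U ≠ ⊥ from fun h => by
      rw [h, Subgroup.card_bot] at hUc; exact absurd hUc.symm (Nat.one_lt_pow two_ne_zero hp.out.one_lt).ne')
    set M := U ⊓ Subgroup.center P with hM
    have hMU : p * 1 ≤ Nat.card M := by
      have h := le_card_of_lt hP (bot_lt_iff_ne_bot.2 hne : ⊥ < M)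
      rwa [Subgroup.card_bot] at h
    let φ := QuotientGroup.mk' M
    haveI : (U.map φ).Normal := Subgroup.Normal.map inferInstance φ (QuotientGroup.mk'_surjective M)
    have hle : Nat.card (U.map φ) ≤ p := by
      have h := Subgroup.card_mul_index (M.subgroupOf U)
      rw [Nat.card_congr (Subgroup.subgroupOfEquivOfLe (inf_le_left : M ≤ U)).toEquiv] at h
      have h' : Nat.card (U.map φ) = (M.subgroupOf U).index := by
        rw [← Subgroup.relIndex_ker, QuotientGroup.ker_mk']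
        rfl
      rw [h']
      rw [hUc] at h
      rw [mul_one] at hMU
      have := Nat.mul_le_mul_right (M.subgroupOf U).index hMU
      rw [h, pow_two] at this
      exact Nat.le_of_mul_le_mul_left this hp.out.pos
    have hcen := CfsgLib.PLocalBasics.le_center_of_card_le (hP.to_quotient M) ‹_› hle (Subgroup.mem_map_of_mem φ hwU)
    have h7 : φ ⁅w, y⁆ = 1 := by
      rw [map_commutatorElement, commutatorElement_eq_one_iff_mul_comm]
      exact (Subgroup.mem_center_iff.1 hcen (φ y)).symm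
    exact ((QuotientGroup.eq_one_iff _).1 h7).2
  -- `W` is generated by two elements over `E`
  have hW3 : Nat.card W ≤ p ^ 3 := by
    refine (card_le_cube (hP.to_subgroup W) (fun a b => ?_) fun A hA => ?_).1
    · exact Subgroup.mem_center_iff.2 fun g => Subtype.ext (Subgroup.mem_center_iff.1 (hcommE a a.2 b).1 g)
    · rw [← Subgroup.card_map_of_injective (K := A) W.subtype_injective]
      haveI := hA
      refine hrk _ inferInstance ?_
      rintro _ ⟨a, -, rfl⟩
      exact ((hWm _).1 a.2).2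
  set A := E ⊔ Subgroup.zpowers w with hA
  have hwA : w ∈ A := Subgroup.mem_sup_right (Subgroup.mem_zpowers w)
  have hAW : A ≤ W := sup_le hEW (Subgroup.zpowers_le.2 hwW)
  obtain ⟨b, hbW, hgen⟩ : ∃ b ∈ W, A ⊔ Subgroup.zpowers b = W := by
    by_cases hAeq : A = W
    · exact ⟨1, one_mem _, by simp [hAeq]⟩
    obtain ⟨b, hbW, hbA⟩ := SetLike.exists_of_lt (lt_of_le_of_ne hAW hAeq)
    refine ⟨b, hbW, Subgroup.eq_of_le_of_card_ge (sup_le hAW (Subgroup.zpowers_le.2 hbW)) (hW3.trans ?_)⟩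
    have l1 : E < A := lt_of_le_of_ne le_sup_left fun e => hwc (e.ge hwA).1
    have l2 : A < A ⊔ Subgroup.zpowers b :=
      lt_of_le_of_ne le_sup_left fun e => hbA (e.ge (Subgroup.mem_sup_right (Subgroup.mem_zpowers b)))
    have l0 := le_card_of_lt hP (bot_lt_iff_ne_bot.2 hE1 : ⊥ < E)
    rw [Subgroup.card_bot, mul_one] at l0
    rw [pow_succ', pow_two]
    exact (Nat.mul_le_mul_left p (Nat.mul_le_mul_left p l0)).trans
      ((Nat.mul_le_mul_left p (le_card_of_lt hP l1)).trans (le_card_of_lt hP l2))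
  set K := Subgroup.centralizer (W : Set P) with hK
  have hKc : K.Characteristic := by rw [hK]; exact inferInstance
  rcases hL K hKc with hKtop | hKL
  · exact absurd (Subgroup.mem_center_iff.2 fun g =>
      (Subgroup.mem_centralizer_iff.1 (hKtop.ge (Subgroup.mem_top g)) w hwW).symm) hwc
  refine (Nat.le_of_dvd (Nat.pos_of_ne_zero Subgroup.index_ne_zero_of_finite) (Subgroup.index_dvd_of_le hKL)).trans ?_
  have hle : Subgroup.centralizer ({w} : Set P) ⊓ Subgroup.centralizer ({b} : Set P) ≤ K := by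
    rw [hK, Subgroup.le_centralizer_iff, ← hgen, hA]
    refine sup_le (sup_le (fun e he => Subgroup.mem_centralizer_iff.2 fun g _ => Subgroup.mem_center_iff.1 he.1 g) ?_) ?_
    all_goals rw [Subgroup.zpowers_le, Subgroup.mem_centralizer_iff]; intro g hg
    · exact Subgroup.mem_centralizer_singleton_iff.1 hg.1
    · exact Subgroup.mem_centralizer_singleton_iff.1 hg.2
  refine (Nat.le_of_dvd (Nat.pos_of_ne_zero Subgroup.index_ne_zero_of_finite) (Subgroup.index_dvd_of_le hle)).trans ?_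
  refine Subgroup.index_inf_le.trans ?_
  rw [pow_two]
  exact Nat.mul_le_mul ((index_centralizer_singleton_le (hcommE w hwW)).trans hEp)
    ((index_centralizer_singleton_le (hcommE b hbW)).trans hEp)

end CfsgLib.RankTwoChief
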