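import Cfsg.Agent.RankTwoChief.Inside
import Cfsg.Agent.PLocalBasics.AutRankTwo
import Cfsg.Agent.PLocalBasics.CentralizerBound
import Cfsg.Agent.PCore.PConstrained

/-!
`p`-chief factors of `p`-solvable groups of `p`-rank at most two, `p` odd.
-/

set_option autoImplicit false
set_option linter.style.haveILetI false
set_option linter.unusedSectionVars false

namespace CfsgLib.RankTwoChief

open scoped commutatorElement

variable {p : ℕ} [hp : Fact p.Prime] {G : Type*} [Group G] [Finite G]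

theorem relIndex_eq_of_inf_le {H K N : Subgroup G} [K.Normal] [N.Normal] (hKH : K ≤ H) (hN : H ⊓ N ≤ K) :
    (K ⊔ N).relIndex (H ⊔ N) = K.relIndex H := by
  have h1 : H ⊔ N = H ⊔ (K ⊔ N) := by rw [← sup_assoc, sup_eq_left.2 hKH]
  rw [h1, Subgroup.relIndex_sup_right, ← Subgroup.inf_relIndex_right]
  congr 1
  refine le_antisymm ?_ (le_inf le_sup_left hKH)
  rintro x ⟨hx, hxH⟩
  obtain ⟨k, hk, m, hm, rfl⟩ := Subgroup.mem_sup_of_normal_left.1 hx
  exact mul_mem hk (hN ⟨(H.mul_mem_cancel_left (hKH hk)).1 hxH, hm⟩)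

/-- A minimal normal supplement inside a `p`-group bounds the factor. -/
theorem relIndex_le_sq (hp2 : p ≠ 2) (hr : Cfsg.PRankLE p 2 G) {H K R : Subgroup G} [H.Normal] [K.Normal]
    [R.Normal] (hR : IsPGroup p R) (hKH : K ≤ H) (hchief : ∀ L : Subgroup G, L.Normal → K ≤ L → L ≤ H → L = K ∨ L = H)
    (hne : ¬ H ⊓ R ≤ K) : K.relIndex H ≤ p ^ 2 := by
  classical
  obtain ⟨Q, ⟨hQn, hQle, hQK⟩, hmin⟩ := (Set.toFinite {Q : Subgroup G | Q.Normal ∧ Q ≤ H ⊓ R ∧ ¬ Q ≤ K}).exists_minimal
    ⟨H ⊓ R, inferInstance, le_rfl, hne⟩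
  haveI := hQn
  have hQp : IsPGroup p Q := hR.to_le (hQle.trans inf_le_right)
  have hsup : K ⊔ Q = H :=
    (hchief (K ⊔ Q) inferInstance le_sup_left (sup_le hKH (hQle.trans inf_le_left))).resolve_left
      fun h => hQK (le_sup_right.trans h.le)
  have hchar : ∀ T : Subgroup Q, T.Characteristic → T = ⊤ ∨ T ≤ K.subgroupOf Q := by
    intro T hT
    by_cases hTK : T.map Q.subtype ≤ K
    · exact Or.inr (Subgroup.map_le_iff_le_comap.1 hTK)
    haveI := hT
    refine Or.inl (eq_top_iff.2 fun x _ => ?_)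
    have hn : (T.map Q.subtype).Normal := inferInstance
    obtain ⟨y, hy, hyx⟩ := hmin (y := T.map Q.subtype) ⟨hn, (Subgroup.map_subtype_le T).trans hQle, hTK⟩
      (Subgroup.map_subtype_le T) x.2
    rwa [← Q.subtype_injective hyx]
  let T : Subgroup Q := Subgroup.closure (Set.range fun x : Q => x ^ p)
  have hTc : T.Characteristic := Subgroup.characteristic_iff_map_le.2 fun φ => by
    rw [MonoidHom.map_closure]
    refine Subgroup.closure_mono ?_
    rintro _ ⟨_, ⟨x, rfl⟩, rfl⟩
    exact ⟨φ x, (map_pow φ x p).symm⟩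
  have hpow : ∀ x : Q, x ^ p ∈ K.subgroupOf Q := by
    intro x
    rcases hchar T hTc with h | h
    · exfalso
      have hQ1 : (⊥ : Subgroup Q) ≠ ⊤ := fun h' => hQK fun q hq => by
        have h4 : (⟨q, hq⟩ : Q) ∈ (⊥ : Subgroup Q) := h'.ge (Subgroup.mem_top _)
        rw [Subgroup.mem_bot, Subtype.ext_iff] at h4
        rw [show q = 1 from h4]
        exact one_mem _
      obtain ⟨M, hM, -⟩ := (eq_top_or_exists_le_coatom (⊥ : Subgroup Q)).resolve_left hQ1
      refine hM.1 (eq_top_iff.2 (h.ge.trans ((Subgroup.closure_le M).2 ?_)))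
      rintro _ ⟨y, rfl⟩
      exact frattini_le_coatom hM (CfsgLib.PGroup.pow_mem_frattini hQp y)
    · exact h (Subgroup.subset_closure ⟨x, rfl⟩)
  have hrQ : Cfsg.PRankLE p 2 Q := fun A hA hAe => by
    rw [← Subgroup.card_map_of_injective (K := A) Q.subtype_injective]
    haveI := hA
    refine hr _ inferInstance ?_
    rintro _ ⟨a, ha, rfl⟩
    rw [← map_pow, hAe a ha, map_one]
  have h1 := index_le_sq hp2 hQp hrQ (K.subgroupOf Q) hpow hchar
  rw [← hsup, sup_comm, Subgroup.relIndex_sup_right]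
  exact h1

/-- A Sylow subgroup has order at most `p` modulo the `p`-core. -/
theorem relIndex_sylow_le (hp2 : p ≠ 2) (hr : Cfsg.PRankLE p 2 G)
    (hC : Subgroup.centralizer (Cfsg.pCore p G : Set G) ≤ Cfsg.pCore p G) (S : Sylow p G) :
    (Cfsg.pCore p G).relIndex (S : Subgroup G) ≤ p := by
  classical
  set R := Cfsg.pCore p G with hRdef
  haveI hRn : R.Normal := Subgroup.sSup_normal _ fun _ h => h.1
  have hR : IsPGroup p R := CfsgLib.PCore.isPGroup_pCore p G
  have hRS : R ≤ S := CfsgLib.PCore.pCore_le_sylow S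
  obtain ⟨H, hH⟩ := CfsgLib.PGroup.exists_critical (p := p) hR ⊤ fun _ => Subgroup.mem_top _
  haveI hHn : H.Normal := ⟨fun x hx g => by simpa using hH.invariant _ (Subgroup.mem_top (MulAut.conj g)) x hx⟩
  haveI hHc : H.Characteristic := Subgroup.characteristic_iff_map_le.2 fun φ =>
    fun _ ⟨x, hx, e⟩ => e ▸ hH.invariant φ (Subgroup.mem_top φ) x hx
  have h2 : ∀ a b : H, ⁅a, b⁆ ∈ Subgroup.center H := fun a b => by
    have := hH.commutator_le (Subgroup.commutator_mem_commutator a.2 (Subgroup.mem_top (b : R)))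
    exact Subgroup.mem_center_iff.2 fun g => Subtype.ext (Subgroup.mem_centralizer_iff.1 this.2 g g.2)
  have hpz : ∀ x g : H, Commute (x ^ p) g := fun x g => Subtype.ext (by
    simpa using (Subgroup.mem_centralizer_iff.1 (hH.pow_mem x x.2) g g.2).symm)
  have hcp : ∀ x y : H, ⁅y, x⁆ ^ p = 1 := fun x y => by
    rw [← CfsgLib.PGroup.commutator_pow_right h2, commutatorElement_eq_one_iff_mul_comm]
    exact (hpz x y).symm.eq
  have hpow : ∀ x y : H, (x * y) ^ p = x ^ p * y ^ p := fun x y => by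
    obtain ⟨k, hk⟩ := CfsgLib.PGroup.dvd_choose_two (p := p) hp2
    rw [CfsgLib.PGroup.mul_pow_central (h2 y x), hk, pow_mul, hcp, one_pow, mul_one]
  set W := CfsgLib.PGroup.omegaSubgroup (p := p) hp2 h2 with hW
  haveI hWc : W.Characteristic := Subgroup.characteristic_iff_map_le.2 fun φ =>
    fun _ ⟨x, (hx : x ^ p = 1), e⟩ => e ▸ show (φ x) ^ p = 1 by rw [← map_pow, hx, map_one]
  let ι : W →* G := (R.subtype.comp H.subtype).comp W.subtype
  have hι : Function.Injective ι := fun a b h => Subtype.ext (Subtype.ext (Subtype.ext h))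
  set WG := ι.range with hWG
  have hWGeq : WG = ((W.map H.subtype).map R.subtype) := by
    rw [hWG, MonoidHom.range_comp, Subgroup.range_subtype, Subgroup.map_map]
  haveI hWGn : WG.Normal := by
    rw [hWGeq]
    haveI : (W.map H.subtype).Characteristic := Subgroup.characteristic_iff_map_le.2 fun φ => by
      rintro _ ⟨_, ⟨w, hw, rfl⟩, rfl⟩
      refine ⟨⟨φ w, hH.invariant φ (Subgroup.mem_top φ) w w.2⟩, ?_, rfl⟩
      exact Subtype.ext ((map_pow φ (w : R) p).symm.trans
        ((congrArg (fun u : H => φ (u : R)) (show w ^ p = 1 from hw)).trans (map_one φ)))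
    infer_instance
  have hWGR : WG ≤ R := by rw [hWGeq]; exact Subgroup.map_subtype_le _
  have hWp : IsPGroup p W := (hR.to_subgroup H).to_subgroup W
  obtain ⟨hW3, hWZ⟩ := card_le_cube hWp
    (fun a b => Subgroup.mem_center_iff.2 fun g => Subtype.ext (Subgroup.mem_center_iff.1 (h2 a b) g)) fun A hA => by
      haveI := hA
      rw [← Subgroup.card_map_of_injective (K := A) hι]
      refine hr _ inferInstance ?_
      rintro _ ⟨a, -, rfl⟩
      rw [← map_pow]
      exact congrArg ι (Subtype.ext (show ((a : W) : H) ^ p = 1 from a.2)) |>.trans (map_one ι)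
  -- the bottom `N₀`
  obtain ⟨N₀, hN₀n, hN₀W, hN₀c, hquot⟩ : ∃ N₀ : Subgroup G, N₀.Normal ∧ N₀ ≤ WG ∧ Nat.card N₀ ≤ p ∧
      N₀.relIndex WG ≤ p ^ 2 := by
    by_cases hab : Subgroup.center W = ⊤
    · refine ⟨⊥, inferInstance, bot_le, by rw [Subgroup.card_bot]; exact hp.out.pos, ?_⟩
      rw [Subgroup.relIndex_bot_left, hWG, ← Nat.card_congr (MonoidHom.ofInjective hι).toEquiv]
      have : IsMulCommutative W := ⟨⟨fun a b => Subgroup.mem_center_iff.1 (hab.ge (Subgroup.mem_top b)) a⟩⟩
      haveI := this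
      rw [← Subgroup.card_top (G := W), ← Subgroup.card_map_of_injective (K := ⊤) hι]
      refine hr _ inferInstance ?_
      rintro _ ⟨a, -, rfl⟩
      rw [← map_pow]
      exact congrArg ι (Subtype.ext (show (a : H) ^ p = 1 from a.2)) |>.trans (map_one ι)
    · refine ⟨(Subgroup.center W).map ι, ?_, Subgroup.map_le_range _ _, ?_, ?_⟩
      · have e : (Subgroup.center W).map ι = WG ⊓ Subgroup.centralizer (WG : Set G) := by
          ext x
          constructor
          · rintro ⟨z, hz, rfl⟩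
            refine ⟨⟨z, rfl⟩, Subgroup.mem_centralizer_iff.2 ?_⟩
            rintro _ ⟨w, rfl⟩
            rw [← map_mul, ← map_mul, Subgroup.mem_center_iff.1 hz w]
          · rintro ⟨⟨z, rfl⟩, hz⟩
            refine ⟨z, Subgroup.mem_center_iff.2 fun w => hι ?_, rfl⟩
            rw [map_mul, map_mul]
            exact Subgroup.mem_centralizer_iff.1 hz _ ⟨w, rfl⟩
        rw [e]; infer_instance
      · rw [Subgroup.card_map_of_injective hι]; exact hWZ.resolve_right hab
      · rw [hWG, MonoidHom.range_eq_map, Subgroup.relIndex_map_map_of_injective _ _ hι, Subgroup.relIndex_top_right]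
        have h := (Subgroup.center W).card_mul_index
        have hlt := le_card_of_lt hWp (bot_lt_iff_ne_bot.2 (fun h0 => hab (by
          by_contra
          rcases subsingleton_or_nontrivial W with hs | hs
          · exact hab (Subsingleton.elim _ _)
          · haveI := hWp.center_nontrivial
            exact (Subgroup.nontrivial_iff_ne_bot _).1 inferInstance h0)) : ⊥ < Subgroup.center W)
        rw [Subgroup.card_bot, mul_one] at hlt
        have h' : p * (Subgroup.center W).index ≤ p * p ^ 2 := by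
          rw [← pow_succ']
          exact (Nat.mul_le_mul_right _ hlt).trans (h.trans_le hW3)
        exact Nat.le_of_mul_le_mul_left h' hp.out.pos
  haveI := hN₀n
  set φ := QuotientGroup.mk' N₀ with hφ
  have hφs : Function.Surjective φ := QuotientGroup.mk'_surjective N₀
  haveI : (WG.map φ).Normal := Subgroup.Normal.map hWGn φ hφs
  set Y := (Subgroup.centralizer ((WG.map φ : Subgroup _) : Set (G ⧸ N₀))).comap φ with hY
  haveI : Y.Normal := inferInstanceAs ((Subgroup.centralizer ((WG.map φ : Subgroup _) : Set (G ⧸ N₀))).comap φ).Normal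
  set X := Y ⊓ Subgroup.centralizer (N₀ : Set G) with hX
  have hXp : IsPGroup p X := by
    refine IsPGroup.of_card (n := (Nat.card X).primeFactorsList.length)
      (Nat.eq_prime_pow_of_unique_prime_dvd Nat.card_pos.ne' fun {q} hq hqd => ?_)
    by_contra hqp
    haveI : Fact q.Prime := ⟨hq⟩
    obtain ⟨g, hg⟩ := exists_prime_orderOf_dvd_card' (G := X) q hqd
    have hgo : orderOf (g : G) = q := by rw [Subgroup.orderOf_coe]; exact hg
    have hco : (orderOf (g : G)).Coprime p := hgo ▸ (Nat.coprime_primes hq hp.out).2 hqp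
    obtain ⟨hgY, hgN⟩ := g.2
    let σW : MulAut WG := MulAut.conjNormal (g : G)
    have hσ : (orderOf σW).Coprime p :=
      hco.coprime_dvd_left (orderOf_map_dvd (MulAut.conjNormal : G →* MulAut WG) (g : G))
    have hfixW : ∀ v : WG, σW v = v := fun v => by
      refine CfsgLib.PLocalBasics.fixed_of_step_fixed (hR.to_le hWGR) hσ ?_
      have hc : ((v⁻¹ * σW v : WG) : G) ∈ N₀ := by
        refine (QuotientGroup.eq_one_iff _).1 ?_
        show φ ((v : G)⁻¹ * ((g : G) * (v : G) * (g : G)⁻¹)) = 1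
        rw [map_mul, map_mul, map_mul, map_inv, map_inv,
          ← Subgroup.mem_centralizer_iff.1 hgY _ ⟨v, v.2, rfl⟩, mul_inv_cancel_right, inv_mul_cancel]
      refine Subtype.ext ?_
      show (g : G) * ((v⁻¹ * σW v : WG) : G) * (g : G)⁻¹ = _
      rw [← Subgroup.mem_centralizer_iff.1 hgN _ hc, mul_inv_cancel_right]
    let α : MulAut R := MulAut.conjNormal (g : G)
    have hα : (orderOf α).Coprime p :=
      hco.coprime_dvd_left (orderOf_map_dvd (MulAut.conjNormal : G →* MulAut R) (g : G))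
    have hHα : H.map α.toMonoidHom = H := Subgroup.characteristic_iff_map_eq.1 hHc α
    let αH : MulAut H := ((α.subgroupMap H).trans (MulEquiv.subgroupCongr hHα) : H ≃* H)
    have hcoe : ∀ (n : ℕ) (w : H), (((αH ^ n) w : H) : R) = (α ^ n) (w : R) := by
      intro n
      induction n with
      | zero => simp
      | succ k ih => intro w; rw [pow_succ, pow_succ, MulAut.mul_apply, MulAut.mul_apply, ih]; rfl
    have hαH : (orderOf αH).Coprime p := by
      refine hα.coprime_dvd_left (orderOf_dvd_of_pow_eq_one (MulEquiv.ext fun w => Subtype.ext ?_))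
      rw [hcoe, pow_orderOf_eq_one, MulAut.one_apply, MulAut.one_apply]
    have h1 := CfsgLib.PLocalBasics.exists_moved_of_class_two (hR.to_subgroup H) hpow hαH fun x hx => by
      refine Subtype.ext (Subtype.ext ?_)
      have hx' : ((x : R) : G) ∈ WG := ⟨⟨x, hx⟩, rfl⟩
      exact congrArg (fun v : WG => (v : G)) (hfixW ⟨((x : R) : G), hx'⟩)
    have h3 := CfsgLib.PGroup.eq_one_of_fixes_selfCentralizing hR hH.centralizer_le hα fun x hx =>
      congrArg Subtype.val (show αH ⟨x, hx⟩ = ⟨x, hx⟩ by rw [h1]; rfl)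
    have h4 : (g : G) ∈ R := hC (Subgroup.mem_centralizer_iff.2 fun r hr => by
      have h5 : (g : G) * r * (g : G)⁻¹ = r :=
        congrArg Subtype.val (show α ⟨r, hr⟩ = ⟨r, hr⟩ by rw [h3]; rfl)
      exact (mul_inv_eq_iff_eq_mul.1 h5).symm)
    obtain ⟨k, hk⟩ := hR ⟨(g : G), h4⟩
    have h6 : orderOf (g : G) ∣ p ^ k := orderOf_dvd_of_pow_eq_one (congrArg Subtype.val hk)
    rw [hgo] at h6
    exact hqp ((Nat.prime_dvd_prime_iff_eq hq hp.out).1 (hq.dvd_of_dvd_pow h6))
  haveI : X.Normal := inferInstanceAs (Y ⊓ Subgroup.centralizer (N₀ : Set G)).Normal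
  have hXR : X ≤ R := CfsgLib.PCore.le_pCore ‹_› hXp
  have hSY : Y ⊓ (S : Subgroup G) ≤ R := fun x hx => hXR ⟨hx.1, Subgroup.mem_centralizer_iff.2 fun z hz => by
    have hzS : z ∈ (S : Subgroup G) := hRS (hWGR (hN₀W hz))
    have hcard : Nat.card (N₀.subgroupOf (S : Subgroup G)) ≤ p := by
      rw [Nat.card_congr (Subgroup.subgroupOfEquivOfLe (hN₀W.trans (hWGR.trans hRS))).toEquiv]
      exact hN₀c
    have hzc := CfsgLib.PLocalBasics.le_center_of_card_le S.2 inferInstance hcard
      (show (⟨z, hzS⟩ : (S : Subgroup G)) ∈ N₀.subgroupOf (S : Subgroup G) from hz)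
    exact (congrArg Subtype.val (Subgroup.mem_center_iff.1 hzc ⟨x, hx.2⟩)).symm⟩
  refine (Nat.le_of_dvd (Nat.pos_of_ne_zero Subgroup.index_ne_zero_of_finite) (Subgroup.relIndex_dvd_of_le_left _ hSY)).trans ?_
  show (Y ⊓ (S : Subgroup G)).relIndex (S : Subgroup G) ≤ p
  rw [show (Y ⊓ (S : Subgroup G)).relIndex (S : Subgroup G) = Y.relIndex (S : Subgroup G) from
    Subgroup.inf_relIndex_right _ _, hY, Subgroup.relIndex_comap]
  set S' := (S : Subgroup G).map φ with hS'
  have hWS : WG.map φ ≤ S' := Subgroup.map_mono (hWGR.trans hRS)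
  have hcardW : Nat.card ((WG.map φ).subgroupOf S') ≤ p ^ 2 := by
    rw [Nat.card_congr (Subgroup.subgroupOfEquivOfLe hWS).toEquiv, ← Subgroup.relIndex_ker, hφ, QuotientGroup.ker_mk']
    exact hquot
  have h7 := CfsgLib.PLocalBasics.index_centralizer_le (G := S') (S.2.map φ) 2 ((WG.map φ).subgroupOf S') inferInstance hcardW
  rw [show Nat.choose 2 2 = 1 from rfl, pow_one] at h7
  refine le_trans (le_of_eq ?_) h7
  rw [Subgroup.relIndex]
  congr 1
  ext x
  simp only [Subgroup.mem_subgroupOf, Subgroup.mem_centralizer_iff]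
  exact ⟨fun h y hy => Subtype.ext (h y hy), fun h y hy => congrArg Subtype.val (h ⟨y, hWS hy⟩ hy)⟩

theorem rank_quotient_pPrimeCore (hr : Cfsg.PRankLE p 2 G) [(Cfsg.pPrimeCore p G).Normal] :
    Cfsg.PRankLE p 2 (G ⧸ Cfsg.pPrimeCore p G) := by
  intro A hA hAe
  haveI := hA
  set N := Cfsg.pPrimeCore p G with hN
  have hAp : IsPGroup p A := fun a => ⟨1, by rw [pow_one]; exact Subtype.ext (hAe a a.2)⟩
  obtain ⟨P', hP'⟩ := hAp.exists_le_sylow
  obtain ⟨S, hS⟩ := Sylow.mapSurjective_surjective (QuotientGroup.mk'_surjective N) p P'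
  set f : (S : Subgroup G) →* G ⧸ N := (QuotientGroup.mk' N).comp (S : Subgroup G).subtype with hf
  have hfinj : Function.Injective f := by
    rw [← MonoidHom.ker_eq_bot_iff, Subgroup.eq_bot_iff_forall]
    intro x hx
    have h2 : (x : G) ∈ N := (QuotientGroup.eq_one_iff _).1 hx
    obtain ⟨k, hk⟩ := S.2 x
    have h4 : orderOf (x : G) ∣ p ^ k := orderOf_dvd_of_pow_eq_one (congrArg Subtype.val hk)
    have h5 : orderOf (x : G) ∣ Nat.card N := Subgroup.orderOf_dvd_natCard N h2
    have h6 : (Nat.card N).Coprime (p ^ k) := (CfsgLib.PCore.pPrimeCore_coprime p G).pow_right k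
    exact Subtype.ext (orderOf_eq_one_iff.1 (Nat.eq_one_of_dvd_coprimes h6 h5 h4))
  have hle : A ≤ f.range := by
    refine hP'.trans ?_
    rw [← hS, Sylow.coe_mapSurjective]
    rintro _ ⟨s, hs, rfl⟩
    exact ⟨⟨s, hs⟩, rfl⟩
  have h1 : Nat.card (A.comap f) = Nat.card A := by
    rw [← Subgroup.card_map_of_injective hfinj (K := A.comap f), Subgroup.map_comap_eq_self hle]
  rw [← h1, ← Subgroup.card_map_of_injective (K := A.comap f) (S : Subgroup G).subtype_injective]
  haveI : IsMulCommutative ↥(A.comap f) := ⟨⟨fun a b => Subtype.ext (hfinj (by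
    rw [Subgroup.coe_mul, Subgroup.coe_mul, map_mul, map_mul]
    exact setLike_mul_comm (show f a ∈ A from a.2) (show f b ∈ A from b.2)))⟩⟩
  refine hr _ inferInstance ?_
  rintro _ ⟨a, ha, rfl⟩
  rw [← map_pow]
  refine (congrArg _ (hfinj ?_)).trans (map_one _)
  rw [map_pow, map_one, hAe _ (show f a ∈ A from ha)]

/-- The chief factor bound with trivial `O_{p'}`; only the rank of the `p`-core and the Sylow bound are used. -/
theorem relIndex_chief_reduced (hp2 : p ≠ 2) (hC : Subgroup.centralizer (Cfsg.pCore p G : Set G) ≤ Cfsg.pCore p G)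
    (hr : Cfsg.PRankLE p 2 G) (H K : Subgroup G) [H.Normal] [K.Normal] (hKH : K ≤ H) (n : ℕ)
    (hn : K.relIndex H = p ^ n) (hchief : ∀ L : Subgroup G, L.Normal → K ≤ L → L ≤ H → L = K ∨ L = H) :
    n ≤ 2 := by
  haveI hRn : (Cfsg.pCore p G).Normal := Subgroup.sSup_normal _ fun _ h => h.1
  by_cases hne : H ⊓ Cfsg.pCore p G ≤ K
  · obtain ⟨S⟩ := (inferInstance : Nonempty (Sylow p G))
    have h1 : p ^ n ∣ (Cfsg.pCore p G).index := by
      rw [← hn, ← relIndex_eq_of_inf_le hKH hne]
      exact (Subgroup.relIndex_dvd_index_of_normal _ _).trans (Subgroup.index_dvd_of_le le_sup_right)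
    rw [← Subgroup.relIndex_mul_index (CfsgLib.PCore.pCore_le_sylow S)] at h1
    have h2 : p ^ n ∣ (Cfsg.pCore p G).relIndex (S : Subgroup G) :=
      ((hp.out.coprime_iff_not_dvd.2 S.not_dvd_index).pow_left n).dvd_of_dvd_mul_right h1
    have h3 := (Nat.le_of_dvd (Nat.pos_of_ne_zero Subgroup.index_ne_zero_of_finite) h2).trans
      (relIndex_sylow_le hp2 hr hC S)
    have : n ≤ 1 := (Nat.pow_le_pow_iff_right hp.out.one_lt).1 (h3.trans_eq (pow_one p).symm)
    omega
  · have := relIndex_le_sq hp2 hr (CfsgLib.PCore.isPGroup_pCore p G) hKH hchief hne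
    rw [hn] at this
    exact (Nat.pow_le_pow_iff_right hp.out.one_lt).1 this

end CfsgLib.RankTwoChief
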